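import Cfsg.Agent.Lib.FA.Syl
import Cfsg.Agent.Lib.Coprime.Semidirect

/-!
# Frobenius groups of automorphisms: translation to the semidirect product
-/

set_option autoImplicit false
set_option linter.unusedSectionVars false

namespace Cfsg.Agent.FA

open Subgroup Cfsg.Agent.Coprime Cfsg.Agent.OO Cfsg.Agent.Mod SemidirectProduct
open scoped Pointwise commutatorElement

variable {G A : Type*} [Group G] [Finite G] [Group A] [Finite A] (φ : A →* MulAut G)
  {F H : Subgroup A} {N : Subgroup G}

theorem nilFrob_of (hH : Cfsg.IsFrobeniusComplement H) (hk : Cfsg.frobeniusKernel H = (F : Set A)) :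
    NilFrob F H :=
  have hF := (Frob.isFrobPair_of_kernel_eq hH hk).1
  ⟨Transfer.isNilpotent_of_isFrobPair hF, hF.le_normalizer, hF.fpf⟩

theorem nf_map (hF : Nil F) (hN : InvBy φ F N) (h : ∀ g ∈ N, (∀ f ∈ F, φ f g = g) → g = 1) :
    NF (N.map (inl : G →* G ⋊[φ] A)) (F.map inr) := by
  refine ⟨(map_inr_le_normalizer_iff φ).2 hN, Core.isNilpotent_map hF _, ?_⟩
  rw [map_inl_inf_centralizer, Subgroup.map_eq_bot_iff_of_injective _ inl_injective, eq_bot_iff]
  exact fun g hg => h g hg.1 hg.2

end Cfsg.Agent.FA
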