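import Cfsg.Agent.Lib.OO.QuoB

/-!
# Nilpotent operator groups without fixed points: every supplement contains a conjugate
-/

set_option autoImplicit false
set_option linter.unusedSectionVars false

namespace Cfsg.Agent.FA

open Subgroup Cfsg.Agent.Coprime Cfsg.Agent.OO
open scoped Pointwise commutatorElement

universe u

section

variable {X : Type u} [Group X] [Finite X] {A B N Q R T W Y Z Γ : Subgroup X} {p : ℕ} {g : X}

/-- the nilpotent group `A` acts on `Γ` without fixed points -/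
structure NF (Γ A : Subgroup X) : Prop where
  norm : A ≤ 𝐍(Γ)
  nil : Nil A
  cent : Γ ⊓ 𝐂(A) = ⊥

/-- `A ≤ Γ Y` -/
def Sup (Γ A Y : Subgroup X) : Prop := ∀ a ∈ A, ∃ g ∈ Γ, g⁻¹ * a ∈ Y

/-- `Y` contains a `Γ`-conjugate of `A` -/
def Gd (Γ A Y : Subgroup X) : Prop := ∃ g ∈ Γ, g •ᶜ A ≤ Y

theorem Sup.mono (h : Sup Γ A Y) (hB : B ≤ A) (hY : Y ≤ Z) : Sup Γ B Z := fun a ha =>
  (h a (hB ha)).imp fun _ hg => ⟨hg.1, hY hg.2⟩

theorem Gd.mono (h : Gd Γ A Y) (hY : Y ≤ Z) : Gd Γ A Z := h.imp fun _ hg => ⟨hg.1, hg.2.trans hY⟩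

theorem Gd.conj (h : Gd Γ A Y) (hg : g ∈ Γ) : Gd Γ A (g •ᶜ Y) := by
  obtain ⟨x, hx, e⟩ := h
  exact ⟨g * x, mul_mem hg hx, by rw [← conj_conj]; exact conj_mono g e⟩

namespace NF

variable (h : NF Γ A)
include h

theorem inf : A ⊓ Γ = ⊥ := by_contra fun e =>
  inf_cent_ne_bot_of_nil h.nil ⟨inf_le_left, le_norm_inf (le_norm_self A) h.norm⟩ e
    (eq_bot_iff.2 (h.cent ▸ inf_le_inf_right _ inf_le_right))

theorem mono (hB : B ≤ Γ) (hn : A ≤ 𝐍(B)) : NF B A :=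
  ⟨hn, h.nil, eq_bot_iff.2 ((inf_le_inf_right _ hB).trans h.cent.le)⟩

theorem conj (hg : g ∈ Γ) : NF Γ (g •ᶜ A) := by
  have e := conj_eq_of_mem_norm (le_norm_self Γ hg)
  refine ⟨?_, nil_conj.2 h.nil, ?_⟩
  · rw [← e, norm_conj]; exact conj_mono g h.norm
  · rw [← e, cent_conj, ← conj_inf, h.cent, conj_bot]

theorem eq_one (hg : g ∈ Γ) (e : g •ᶜ A ≤ A) : g = 1 := by
  refine mem_bot.1 (h.cent.le ⟨hg, mem_cent_iff.2 fun a ha => ?_⟩)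
  have h5 : g * a * g⁻¹ * a⁻¹ ∈ A ⊓ Γ := ⟨A.mul_mem (e (conj_mem_conj ha)) (A.inv_mem ha), by
    rw [mul_assoc, mul_assoc, ← mul_assoc a]
    exact Γ.mul_mem hg (conj_mem_of_norm (h.norm ha) (Γ.inv_mem hg))⟩
  calc _ = (g * a * g⁻¹ * a⁻¹)⁻¹ * (g * a) := by group
    _ = _ := by rw [mem_bot.1 (h.inf.le h5), inv_one, one_mul]

theorem inf_cent [Fact p.Prime] (hp : IsPGroup p B) (hB : B ≤ Γ) (hn : A ≤ 𝐍(B)) :
    B ⊓ 𝐂(Op' p A) = ⊥ := by_contra fun e => by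
  refine inf_cent_ne_bot_of_isPGroup (Op_isPGroup p A) (hp.to_le inf_le_left)
    ((Op_le p A).trans (le_norm_inf hn (le_norm_cent (Opi_normal _ A).norm))) e (eq_bot_iff.2 ?_)
  rw [← h.cent]
  conv_rhs => rw [← (dprod_Op_of_nil p h.nil).isProd.sup_eq, cent_sup]
  exact fun x hx => ⟨hB hx.1.1, hx.2, hx.1.2⟩

theorem gd_p [Fact p.Prime] (hp : IsPGroup p Γ) (hY : Sup Γ A Y) : Gd Γ A Y := by
  have h0 := h.inf_cent hp le_rfl h.norm
  have h1 := (Opi_le ({p} : Set ℕ)ᶜ A).trans h.norm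
  have h2 := (coprime_of_isPGroup hp (Op'_piGrp p A)).symm
  have h3 := Or.inr (a := Sol (Op' p A)) (sol_of_isPGroup hp)
  have e : ∀ a b : X, a • ((1 : X) : X ⧸ Y) = b • ((1 : X) : X ⧸ Y) ↔ b⁻¹ * a ∈ Y := fun a b => by
    rw [eq_comm]
    simp [QuotientGroup.eq]
  obtain ⟨g, hg, h4⟩ := glauberman_exists h1 h2 h3 ((1 : X) : X ⧸ Y) fun a ha =>
    (hY a (Opi_le _ A ha)).imp fun g hg => ⟨hg.1, (e a g).2 hg.2⟩
  refine ⟨g⁻¹, inv_mem hg, fun y hy => ?_⟩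
  obtain ⟨a, ha, rfl⟩ := mem_conj_iff_exists.1 hy
  obtain ⟨b, hb, h5⟩ := hY a ha
  have h6 : (a * g * a⁻¹ * b * g⁻¹) • g • ((1 : X) : X ⧸ Y) = a • g • ((1 : X) : X ⧸ Y) := by
    rw [smul_smul, inv_mul_cancel_right, mul_smul, ← (e a b).2 h5, smul_smul, inv_mul_cancel_right,
      mul_smul]
  obtain ⟨c, hc, h7⟩ := glauberman_conj h1 h2 h3
    (mul_mem (mul_mem (conj_mem_of_norm (h.norm ha) hg) hb) (inv_mem hg)) h4 fun k hk => by
      rw [h6, smul_smul k, show k * a = a * (a⁻¹ * k * a) by group, mul_smul,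
        h4 _ (conj_mem_of_norm' ((Opi_normal _ A).norm ha) hk)]
  rw [mem_bot.1 (h0.le hc), h6, one_smul, smul_smul] at h7
  rw [inv_inv, mul_assoc]
  first | exact (e _ _).1 h7 | exact (e _ _).1 h7.symm

/-- passing to a quotient, once the kernel is known to have the supplement property -/
theorem quo (hN : N ⊴ Γ) (hn : A ≤ 𝐍(N)) (hs : ∀ Y, Sup N A Y → Gd N A Y) :
    NF (Γ ⁒ N) (A ⁒ N) := by
  refine ⟨quo_le_norm N h.norm, nil_quo h.nil N, eq_bot_iff.2 fun z hz => ?_⟩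
  obtain ⟨x, hx, rfl⟩ := (mem_quo_of_le hN.norm).1 hz.1
  have h1 := (coset_mem_cent_iff (hN.norm hx) hn).1 hz.2
  obtain ⟨g, hg, h2⟩ := hs (x •ᶜ A) fun a ha => ⟨_, inv_mem (h1 a ha), by
    rw [inv_inv, commutatorElement_def, inv_mul_cancel_right]; exact conj_mem_conj ha⟩
  have h3 := h.eq_one (mul_mem (inv_mem hx) (hN.le hg)) (by
    rw [← conj_conj]; exact (conj_mono _ h2).trans (inv_conj_conj x A).le)
  rw [inv_mul_eq_one] at h3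
  exact coset_eq_one (h3 ▸ hg)

end NF

/-- the Frattini argument inside `Γ ⊔ R` -/
theorem Sup.fr [hp : Fact p.Prime] (hY : Sup Γ A Y) (hA : A ≤ 𝐍(Γ)) (hR : R ⊴ A)
    (hr : IsPGroup p R) (hT : Syl p T (Y ⊓ (Γ ⊔ R))) : Sup Γ A (Y ⊓ 𝐍(T)) ∧ Sup Γ R T := by
  have h1 := hR.le.trans hA
  have h2 : IsProd (Γ ⊓ (Y ⊓ (Γ ⊔ R))) T (Y ⊓ (Γ ⊔ R)) := by
    refine .of_coprime_relIndex inf_le_right hT.le ?_
    obtain ⟨k, hk⟩ := hr.exists_card_eq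
    rw [inf_relIndex_right]
    refine Nat.Coprime.coprime_dvd_left ((relIndex_dvd_of_le_norm inf_le_right
      (sup_le (le_norm_self Γ) h1)).trans ?_)
      (Nat.Coprime.pow_left k (hp.out.coprime_iff_not_dvd.2 hT.not_dvd))
    rw [relIndex_sup_eq' (.inr h1), ← hk]
    exact relIndex_dvd_card _ _
  refine ⟨fun a ha => ?_, fun a ha => ?_⟩
  · obtain ⟨g, hg, e⟩ := hY a ha
    have h3 : g⁻¹ * a ∈ 𝐍(Y ⊓ (Γ ⊔ R)) := mem_norm_inf (le_norm_self Y e)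
      (mul_mem (inv_mem (le_norm_self _ (mem_sup_left hg))) (le_norm_sup hA hR.norm ha))
    obtain ⟨d, hd, e1⟩ := hT.exists_conj' (hT.conj_of_norm h3)
    obtain ⟨c, hc, t, ht, rfl⟩ := h2.mem_iff.1 hd
    refine ⟨g * c, mul_mem hg hc.1, ?_⟩
    rw [mul_inv_rev, mul_assoc]
    refine ⟨Y.mul_mem (Y.inv_mem hc.2.1) e, conj_eq_self_iff.1 ?_⟩
    rw [← conj_conj, e1, ← conj_conj, inv_conj_conj, conj_eq_of_mem_norm (le_norm_self T ht)]
  · obtain ⟨g, hg, e⟩ := hY a (hR.le ha)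
    obtain ⟨c, hc, t, ht, e1⟩ := h2.mem_iff.1
      (mem_inf.2 ⟨e, mul_mem (inv_mem (mem_sup_left hg)) (mem_sup_right ha)⟩)
    exact ⟨g * c, mul_mem hg hc.1, by rw [mul_inv_rev, mul_assoc, ← e1]; simpa using ht⟩

theorem Sup.conj (hY : Sup Γ A Y) (hA : A ≤ 𝐍(Γ)) (hg : g ∈ Γ) : Sup Γ A (g •ᶜ Y) := fun a ha => by
  obtain ⟨c, hc, e⟩ := hY a ha
  refine ⟨a * g * a⁻¹ * c * g⁻¹, mul_mem (mul_mem (conj_mem_of_norm (hA ha) hg) hc) (inv_mem hg),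
    mem_conj.2 ?_⟩
  convert e using 1
  group

variable (X) in
/-- the induction hypothesis inside a fixed group -/
def IH (n : ℕ) : Prop :=
  ∀ Γ A Y : Subgroup X, ♯Γ + ♯A < n → NF Γ A → Sup Γ A Y → Gd Γ A Y

theorem NF.down (h : NF Γ A) (ih : IH X (♯Γ + ♯A)) (hW : Gd Γ A W) (hne : ¬ Γ ≤ W)
    (hZ : Sup Γ A Z) (hle : Z ≤ W) : Gd Γ A Z := by
  obtain ⟨g, hg, e⟩ := hW
  have h1 := h.conj hg
  obtain ⟨x, hx, e1⟩ := ih (W ⊓ Γ) (g •ᶜ A) Z (by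
      rw [card_conj]
      exact Nat.add_lt_add_right (card_lt_of_lt (lt_of_le_of_ne inf_le_right fun e =>
        hne (inf_eq_right.1 e))) _)
    (h1.mono inf_le_right (le_norm_inf (e.trans (le_norm_self W)) h1.norm)) fun y hy => by
      obtain ⟨a, ha, rfl⟩ := mem_conj_iff_exists.1 hy
      obtain ⟨c, hc, e2⟩ := hZ a ha
      refine ⟨g * (a * g⁻¹ * a⁻¹) * c, mem_inf.2 ⟨?_, mul_mem (mul_mem hg
        (conj_mem_of_norm (h.norm ha) (inv_mem hg))) hc⟩, by convert e2 using 1; group⟩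
      convert W.mul_mem (e hy) (W.inv_mem (hle e2)) using 1
      group
  exact ⟨x * g, mul_mem hx.2 hg, by rwa [← conj_conj]⟩

theorem NF.mem_of_cent {n : ℕ} (h : NF Γ Q) (ih : IH X n) (hn : ♯Γ + ♯Q < n) (hY : Q ≤ Y) {r c : X}
    (hr : r ∈ 𝐂(Q)) (hc : c ∈ Γ) (e : c⁻¹ * r ∈ Y) : r ∈ Y := by
  obtain ⟨x, hx, e1⟩ := ih (Y ⊓ Γ) Q (c⁻¹ •ᶜ Q)
    (lt_of_le_of_lt (Nat.add_le_add_right (card_le_of_le inf_le_right) _) hn)
    (h.mono inf_le_right (le_norm_inf (hY.trans (le_norm_self Y)) h.norm)) fun q hq => by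
      refine ⟨q * c⁻¹ * q⁻¹ * c, mem_inf.2
        ⟨?_, mul_mem (conj_mem_of_norm (h.norm hq) (inv_mem hc)) hc⟩, mem_conj.2 (by convert hq using 1; group)⟩
      have h1 := Y.mul_mem (hY hq) (conj_mem_of_norm (le_norm_self Y e) (Y.inv_mem (hY hq)))
      rw [show c⁻¹ * r * q⁻¹ * (c⁻¹ * r)⁻¹ = c⁻¹ * (r * q⁻¹ * r⁻¹) * c by group,
        mem_cent_iff_conj.1 hr _ (inv_mem hq)] at h1
      convert h1 using 1
      group
  have h2 := h.eq_one (mul_mem hc hx.2) (by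
    rw [← conj_conj]; exact conj_le_iff_le_inv_conj.2 e1)
  have h3 := Y.mul_mem (Y.inv_mem hx.1) e
  rwa [← mul_assoc, ← mul_inv_rev, h2, inv_one, one_mul] at h3

theorem NF.le_cent [Fact p.Prime] (h : NF Γ A) (hF : Fit Γ = ⊥) (hT : IsPGroup p T)
    (hle : T ≤ Γ ⊔ A) (hs : Sup Γ (Op p A) T) (hn : Γ ≤ 𝐍(T)) : Op p A ≤ 𝐂(Γ) := by
  have h0 : ∀ K, K ⊴ Γ → Nil K → K = ⊥ := fun K h1 h2 => eq_bot_iff.2 (hF ▸ le_Fit h1 h2)
  have h1 : T ≤ 𝐂(Γ) := le_cent_of_inf_eq_bot (hle.trans (sup_le (le_norm_self Γ) h.norm)) hn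
    (by rw [inf_comm]; exact h0 _ (normalIn_inf_of_norm hn) (nil_of_isPGroup (hT.to_le inf_le_right)))
  have h2 : Γ ⊓ 𝐂(Γ) = ⊥ := h0 _ (normalIn_inf_cent (le_norm_self Γ)) (nil_of_ab (Zc_ab Γ))
  have h3 := le_norm_cent h.norm
  have h4 := (Op_le p A).trans h3
  have h5 : IsPGroup p (Γ ⊓ (Op p A ⊔ 𝐂(Γ)) : Subgroup X) := fun ⟨u, hu⟩ => by
    obtain ⟨r, hr, c, hc, e⟩ := (mem_sup_norm_right h4).1 hu.2
    obtain ⟨k, hk⟩ := Op_isPGroup p A ⟨r, hr⟩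
    have h6 : Commute u c⁻¹ := (mem_cent_iff.1 (inv_mem hc) u hu.1)
    have h7 := h6.mul_pow (p ^ k)
    rw [show u * c⁻¹ = r by rw [← e]; group, show r ^ p ^ k = 1 from congrArg Subtype.val hk,
      eq_comm, mul_eq_one_iff_eq_inv] at h7
    exact ⟨k, Subtype.ext (mem_bot.1 (h2.le (x := u ^ p ^ k) (mem_inf.2 ⟨Γ.pow_mem hu.1 _,
      h7 ▸ inv_mem (pow_mem (inv_mem hc) _)⟩)))⟩
  have h6 := h.inf_cent h5 inf_le_left
    (le_norm_inf h.norm (le_norm_sup (Op_normal p A).norm h3))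
  intro r hr
  obtain ⟨c, hc, e⟩ := hs r hr
  have h8 : c = 1 := mem_bot.1 (h6.le ⟨mem_inf.2 ⟨hc, by
      convert mul_mem (mem_sup_left hr) (mem_sup_right (inv_mem (h1 e))) using 1; group⟩,
    mem_cent_iff.2 fun q hq => by
      have h9 : q * c * q⁻¹ * c⁻¹ ∈ Γ ⊓ 𝐂(Γ) := mem_inf.2 ⟨mul_mem (conj_mem_of_norm
        (h.norm (Opi_le _ A hq)) hc) (inv_mem hc), by
          have e1 := mem_cent_iff_conj.1 (le_cent_comm.1 (dprod_Op_of_nil p h.nil).le_cent hr) q hq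
          have e2 := conj_mem_of_norm (h4 hr) (mul_mem (conj_mem_of_norm (h3 (Opi_le _ A hq))
            (inv_mem (h1 e))) (h1 e))
          rw [show r * (q * (c⁻¹ * r)⁻¹ * q⁻¹ * (c⁻¹ * r)) * r⁻¹ =
            r * q * r⁻¹ * c * q⁻¹ * c⁻¹ by group, e1] at e2
          exact e2⟩
      calc _ = q * c * q⁻¹ * c⁻¹ * (c * q) := by group
        _ = _ := by rw [mem_bot.1 (h2.le h9), one_mul]⟩)
  simpa [h8] using h1 e

theorem NF.climb [Fact p.Prime] (h : NF Γ A) (ih : IH X (♯Γ + ♯A)) (hF : Fit Γ = ⊥)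
    (hc : ¬ Op p A ≤ 𝐂(Γ)) {S : Subgroup X} (hS : Syl p S (Γ ⊔ Op p A)) (T : Subgroup X) :
    T ≤ Γ ⊔ Op p A → IsPGroup p T → Sup Γ (Op p A) T → Sup Γ A 𝐍(T) →
      (Gd Γ A 𝐍(T) ↔ Gd Γ A 𝐍(S)) := by
  induction T using WellFoundedGT.induction with
  | ind T ih' =>
  intro h1 h2 h3 h4
  have hle : Γ ⊔ Op p A ≤ Γ ⊔ A := sup_le_sup_left (Op_le p A) _
  obtain ⟨U, hU, hTU⟩ := exists_syl_ge (le_inf (le_norm_self T) h1) h2
  obtain ⟨h5, h6⟩ := h4.fr h.norm (Op_normal p A) (Op_isPGroup p A) hU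
  have h7 := hU.le.trans inf_le_right
  rcases hTU.lt_or_eq with hlt | rfl
  · rw [← ih' U hlt h7 hU.isPGroup h6 (h5.mono le_rfl inf_le_right)]
    exact ⟨fun e => (h.down ih e (fun e => hc (h.le_cent hF h2 (h1.trans hle) h3 e)) h5
      inf_le_left).mono inf_le_right, fun e => (h.down ih e (fun e => hc (h.le_cent hF hU.isPGroup
        (h7.trans hle) h6 e)) h5 inf_le_right).mono inf_le_left⟩
  · rw [inf_comm] at hU
    obtain ⟨d, hd, rfl⟩ := (IsSylowIn.of_syl_norm h1 hU).exists_conj' hS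
    obtain ⟨c, hc, r, hr, rfl⟩ := (mem_sup_norm_left ((Op_le p A).trans h.norm)).1 hd
    obtain ⟨b, hb, e⟩ := h3 r hr
    rw [show c * r = c * b * (b⁻¹ * r) by group, ← conj_conj, conj_eq_of_mem e, norm_conj]
    exact ⟨fun e => e.conj (mul_mem hc hb), fun e =>
      inv_conj_conj (c * b) 𝐍(T) ▸ e.conj (inv_mem (mul_mem hc hb))⟩

end

theorem gd_aux (n : ℕ) : ∀ (X : Type u) [Group X] [Finite X] (Γ A Y : Subgroup X), ♯Γ + ♯A = n →
    NF Γ A → Sup Γ A Y → Gd Γ A Y := by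
  induction n using Nat.strong_induction_on with
  | _ n ih =>
  intro X _ _ Γ A Y hn h hY
  have ih' : IH X (♯Γ + ♯A) := fun Γ' A' Y' e => ih _ (hn ▸ e) X Γ' A' Y' rfl
  by_cases hF : Fit Γ = ⊥
  swap
  · obtain ⟨N, h1, h2, h3, p, hp, h4⟩ := exists_norm_abelem (sol_of_nil (Fit_nil Γ)) hF
      ((sup_le (le_norm_self Γ) h.norm).trans (norm_le_norm_Fit Γ))
    have := Fact.mk hp
    replace h1 := h1.trans (Fit_le Γ)
    have hΓ := le_sup_left.trans h2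
    have hA := le_sup_right.trans h2
    obtain ⟨_, hg0, h5⟩ := ih _ (hn ▸ Nat.add_lt_add_of_lt_of_le (card_quo_lt h1 h3)
      (Nat.le_of_dvd Nat.card_pos (card_quo_dvd A N))) _ _ _ ((Y ⊓ 𝐍(N)) ⁒ N) rfl
      (h.quo ⟨h1, hΓ⟩ hA fun _ => (h.mono h1 hA).gd_p (abelem_isPGroup h4)) fun z hz => by
        obtain ⟨a, ha, rfl⟩ := (mem_quo_of_le hA).1 hz
        obtain ⟨g, hg, e⟩ := hY a ha
        exact ⟨_, coset_mem_quo N hg, by
          rw [← coset_inv, ← coset_mul (inv_mem (hΓ hg)) (hA ha)]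
          exact coset_mem_quo N (mem_inf.2 ⟨e, mul_mem (inv_mem (hΓ hg)) (hA ha)⟩)⟩
    obtain ⟨g, hg, rfl⟩ := (mem_quo_of_le hΓ).1 hg0
    obtain ⟨m, hm, h6⟩ := (h.mono h1 hA).gd_p (abelem_isPGroup h4) (Y := g⁻¹ •ᶜ Y) fun a ha => by
      have h6 := h5 (conj_mem_conj (coset_mem_quo N ha))
      have h7 := mul_mem (hΓ hg) (hA ha)
      rw [← coset_inv, ← coset_mul (hΓ hg) (hA ha), ← coset_mul h7 (inv_mem (hΓ hg))] at h6
      obtain ⟨y, hy, e⟩ := (mem_quo_of_le inf_le_right).1 h6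
      have h8 := (coset_eq_iff hy.2 (mul_mem h7 (inv_mem (hΓ hg)))).1 e
      refine ⟨_, conj_mem_of_norm' (hΓ hg) (conj_mem_of_norm hy.2 h8), mem_conj.2 ?_⟩
      convert (mem_inf.1 hy).1 using 1
      group
    exact ⟨g * m, mul_mem hg (h1 hm), by rw [← conj_conj]; exact conj_le_iff_le_inv_conj.2 h6⟩
  by_cases hA : A = ⊥
  · exact ⟨1, one_mem _, by rw [hA, conj_bot]; exact bot_le⟩
  obtain ⟨p, hp, hd⟩ := exists_prime_dvd hA
  have := Fact.mk hp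
  have hD := dprod_Op_of_nil p h.nil
  have hR := Op_normal p A
  by_cases hc : Op p A ≤ 𝐂(Γ)
  · have h1 : NF Γ (Op' p A) := ⟨hD.isProd.right_le.trans h.norm, nil_of_le h.nil hD.isProd.right_le,
      eq_bot_iff.2 fun x hx => h.cent.le ⟨hx.1, by
        rw [← hD.isProd.sup_eq, cent_sup]; exact ⟨le_cent_comm.1 hc hx.1, hx.2⟩⟩⟩
    have h2 : ♯Γ + ♯(Op' p A) < ♯Γ + ♯A := Nat.add_lt_add_left (card_lt_of_lt
      (lt_of_le_of_ne hD.isProd.right_le fun e => not_dvd_Op' (p := p) A (e.symm ▸ hd))) _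
    obtain ⟨g, hg, e⟩ := ih' _ _ _ h2 h1 (hY.mono hD.isProd.right_le le_rfl)
    rw [conj_le_iff_le_inv_conj] at e
    refine ⟨g, hg, conj_le_iff_le_inv_conj.2 ?_⟩
    refine hD.isProd.sup_eq.ge.trans (sup_le (fun r hr => ?_) e)
    obtain ⟨c, hc, e1⟩ := hY.conj h.norm (inv_mem hg) r (hR.le hr)
    exact h1.mem_of_cent ih' h2 e (le_cent_comm.1 hD.le_cent hr) hc e1
  obtain ⟨S, hS⟩ := exists_syl p (Γ ⊔ Op p A)
  obtain ⟨T, hT⟩ := exists_syl p (Y ⊓ (Γ ⊔ Op p A))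
  obtain ⟨h1, h2⟩ := hY.fr h.norm hR (Op_isPGroup p A) hT
  have h3 := hT.le.trans inf_le_right
  have h4 := (h.climb ih' hF hc hS _ le_sup_right (Op_isPGroup p A)
    (fun a ha => ⟨1, one_mem _, by simpa using ha⟩)
    fun a ha => ⟨1, one_mem _, by simpa using hR.norm ha⟩).1 ⟨1, one_mem _, by simpa using hR.norm⟩
  exact (h.down ih' ((h.climb ih' hF hc hS _ h3 hT.isPGroup h2 (h1.mono le_rfl inf_le_right)).2 h4)
    (fun e => hc (h.le_cent hF hT.isPGroup (h3.trans (sup_le_sup_left hR.le _)) h2 e)) h1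
    inf_le_right).mono inf_le_left

/-- every supplement to `Γ` in `Γ A` contains a conjugate of `A` -/
theorem NF.gd {X : Type u} [Group X] [Finite X] {Γ A Y : Subgroup X} (h : NF Γ A)
    (hY : Sup Γ A Y) : Gd Γ A Y := gd_aux _ X Γ A Y rfl h hY

end Cfsg.Agent.FA
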