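import Cfsg.Agent.Lib.FA.Sup
import Cfsg.Agent.Lib.Mod.FrobAut

/-!
# Invariant Sylow subgroups under Frobenius groups of automorphisms
-/

set_option autoImplicit false
set_option linter.unusedSectionVars false

namespace Cfsg.Agent.FA

open Subgroup Cfsg.Agent.Coprime Cfsg.Agent.OO Cfsg.Agent.Mod
open scoped Pointwise commutatorElement

universe u

section

variable {X : Type u} [Group X] [Finite X] {A F H N P Q W Γ : Subgroup X} {p : ℕ}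

theorem NF.exists_syl (h : NF Γ A) (p : ℕ) [Fact p.Prime] : ∃ P, Syl p P Γ ∧ A ≤ 𝐍(P) := by
  obtain ⟨P, hP⟩ := OO.exists_syl p Γ
  obtain ⟨g, hg, e⟩ := h.gd (Y := 𝐍(P)) fun a ha => by
    obtain ⟨g, hg, e⟩ := hP.exists_conj' (hP.conj_of_norm (h.norm ha))
    exact ⟨g, hg, conj_eq_self_iff.1 (by rw [← conj_conj, e, inv_conj_conj])⟩
  exact ⟨_, hP.conj_of_mem (inv_mem hg), norm_conj g⁻¹ P ▸ conj_le_iff_le_inv_conj.1 e⟩

theorem NF.syl_eq [Fact p.Prime] (h : NF Γ A) (hP : Syl p P Γ) (hQ : Syl p Q Γ) (h1 : A ≤ 𝐍(P))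
    (h2 : A ≤ 𝐍(Q)) : Q = P := by
  obtain ⟨g, hg, rfl⟩ := hP.exists_conj' hQ
  rw [norm_conj, le_conj_iff_inv_conj_le] at h2
  obtain ⟨x, hx, e⟩ := (h.mono inf_le_left (le_norm_inf h.norm (le_norm_norm h1))).gd
    (Y := g⁻¹ •ᶜ A) fun a ha => ⟨a * g⁻¹ * a⁻¹ * g, mem_inf.2 ⟨mul_mem
      (conj_mem_of_norm (h.norm ha) (inv_mem hg)) hg, by
        convert mul_mem (h1 ha) (h2 (conj_mem_conj (inv_mem ha))) using 1; group⟩,
      mem_conj.2 (by convert ha using 1; group)⟩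
  have h3 := h.eq_one (mul_mem hg hx.1) (by
    rw [← conj_conj]; exact conj_le_iff_le_inv_conj.2 e)
  rw [mul_eq_one_iff_eq_inv] at h3
  exact conj_eq_of_mem_norm (h3 ▸ inv_mem (mem_inf.1 hx).2)

theorem NF.norm_syl [Fact p.Prime] (h : NF Γ A) (hP : Syl p P Γ) (h1 : A ≤ 𝐍(P))
    (h2 : H ≤ 𝐍(Γ)) (h3 : H ≤ 𝐍(A)) : H ≤ 𝐍(P) := fun x hx =>
  conj_eq_self_iff.1 (h.syl_eq hP (hP.conj_of_norm (h2 hx)) h1 (by
    rw [← conj_eq_of_mem_norm (h3 hx)]; exact conj_le_norm_conj.2 h1))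

theorem NF.inf_eq_bot (h : NF Γ F) (hf : NilFrob F H) (hne : Γ ≠ ⊥) : Γ ⊓ H = ⊥ := by
  refine eq_bot_iff.2 fun x hx => by_contra fun x1 => hne ?_
  have : F = ⊥ := eq_bot_iff.2 fun f hf' => hf.fpf x hx.2 x1 f hf' (by
    have h5 : x * f * x⁻¹ * f⁻¹ ∈ F ⊓ Γ := mem_inf.2 ⟨mul_mem (conj_mem_of_norm (hf.le hx.2) hf')
      (inv_mem hf'), by
        rw [mul_assoc, mul_assoc, ← mul_assoc f]
        exact Γ.mul_mem hx.1 (conj_mem_of_norm (h.norm hf') (Γ.inv_mem hx.1))⟩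
    calc _ = x * f * x⁻¹ * f⁻¹ * (f * x) := by group
      _ = _ := by rw [mem_bot.1 (h.inf.le h5), one_mul])
  rw [← h.cent, this, cent_bot, inf_top_eq]

theorem NF.quo_cent (h : NF N F) (hf : NilFrob F H) (hs : Sol N) (hH : H ≤ 𝐍(N)) (hN : N ⊴ Γ) :
    (Γ ⊓ 𝐂(H)) ⁒ N = Γ ⁒ N ⊓ 𝐂(H ⁒ N) := by
  have h1 := ((hf.subgroupOf 𝐍(N)).cover (N.subgroupOf 𝐍(N)) inferInstance
    (Core.isSolvable_subgroupOf hs _)
    (by rw [inf_centralizer_subgroupOf h.norm, h.cent, bot_subgroupOf])).2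
  rw [← ker_cosetHom] at h1
  have h2 := h1.map_inf_centralizer (G := Γ.subgroupOf 𝐍(N))
    (by rw [ker_cosetHom]; exact comap_mono hN.le)
  rwa [inf_centralizer_subgroupOf hH] at h2

end

theorem card_aux (n : ℕ) : ∀ (X : Type u) [Group X] [Finite X] (Γ F H : Subgroup X), ♯Γ = n →
    NF Γ F → NilFrob F H → H ≤ 𝐍(Γ) → Sol Γ → ♯Γ = ♯(Γ ⊓ 𝐂(H) : Subgroup X) ^ ♯H := by
  induction n using Nat.strong_induction_on with
  | _ n ih =>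
  intro X _ _ Γ F H hn h hf hH hs
  by_cases h0 : Γ = ⊥
  · simp [h0]
  obtain ⟨N, h1, h2, h3, p, hp, h4⟩ := exists_norm_abelem hs h0
    (sup_le (le_norm_self Γ) (sup_le h.norm hH))
  have := Fact.mk hp
  have hΓ := le_sup_left.trans h2
  have hF := le_sup_left.trans (le_sup_right.trans h2)
  have hH' := le_sup_right.trans (le_sup_right.trans h2)
  have h5 := h.mono h1 hF
  have h6 := ih _ (hn ▸ card_quo_lt h1 h3) _ _ _ (H ⁒ N) rfl (h.quo ⟨h1, hΓ⟩ hF fun _ => h5.gd)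
    ((hf.subgroupOf 𝐍(N)).map _) (quo_le_norm N hH) (sol_quo hs N)
  rw [← h5.quo_cent hf (sol_of_le hs h1) hH' ⟨h1, hΓ⟩,
    card_quo_of_inf_eq_bot hH' (h5.inf_eq_bot hf h3)] at h6
  have h7 := hf.mono (Opi_le ({p} : Set ℕ)ᶜ F) le_rfl (le_norm_Opi _ hf.le)
  have h8 := card_eq_pow_of_fpf hp h4 (sol_of_nil h7.nil) (not_dvd_Op' F) ((Opi_le _ F).trans hF)
    hH' h7.le h7.fpf (h5.inf_cent (abelem_isPGroup h4) le_rfl hF)
  rw [← card_mul_card_quo ⟨h1, hΓ⟩, h6, ← card_inf_mul_card_quo (inf_le_left.trans hΓ :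
    Γ ⊓ 𝐂(H) ≤ 𝐍(N)), mul_pow, ← inf_assoc, inf_eq_left.2 h1, ← h8]

section

variable {X : Type u} [Group X] [Finite X] {F H P W Γ : Subgroup X}

theorem NF.card_eq_pow (h : NF Γ F) (hf : NilFrob F H) (hH : H ≤ 𝐍(Γ)) (hs : Sol Γ) :
    ♯Γ = ♯(Γ ⊓ 𝐂(H) : Subgroup X) ^ ♯H := card_aux _ X Γ F H rfl h hf hH hs

theorem NF.le_of_cent_le (h : NF Γ F) (hf : NilFrob F H) (hH : H ≤ 𝐍(Γ)) (h1 : F ≤ 𝐍(W))
    (h2 : H ≤ 𝐍(W)) (h3 : Γ ⊓ 𝐂(H) ≤ W) : Γ ≤ W := by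
  refine le_of_forall_syl fun p hp _ => ?_
  have := Fact.mk hp
  obtain ⟨P, hP, hF⟩ := h.exists_syl p
  have h4 := h.norm_syl hP hF hH hf.le
  have h5 := (h.mono hP.le hF).card_eq_pow hf h4 hP.sol
  have h6 := (h.mono (inf_le_left.trans hP.le) (le_norm_inf hF h1)).card_eq_pow hf
    (le_norm_inf h4 h2) (sol_of_le hP.sol inf_le_left)
  rw [inf_right_comm, inf_eq_left.2 ((inf_le_inf_right _ hP.le).trans h3), ← h5] at h6
  exact ⟨P, hP, inf_eq_left.1 (eq_of_le_of_card_ge inf_le_left h6.ge)⟩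

end

end Cfsg.Agent.FA
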